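import Cfsg.Agent.H52.PSq.Good
import Cfsg.Agent.H988.CopCyc.Base
import Cfsg.Agent.LieRecognition.FT61.Grp

/-!
# Case (i) of S4844, PS-9: `U` fixes the factors; and the step for pairs of factors
-/

set_option autoImplicit false

namespace Cfsg.Agent.H52.PSq

open Cfsg Subgroup Cfsg.Agent.H803.S74
open Cfsg.Agent.Characters.Core Cfsg.Agent.Blocks.Knorr
open Cfsg.Agent.H696.PSq (Hyp FactIM)
open Cfsg.Agent.H988.CopCyc (CC)

universe u

variable {p : ℕ} [hp : Fact p.Prime] {G : Type u} [Group G] [Finite G] {V U : Subgroup G} [hV : V.Normal]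
  [hUn : U.Normal] {m : ℕ} {T : Fin m → Subgroup G} {e : V ≃* ∀ i, T i} {σ : G →* Equiv.Perm (Fin m)}

/-- the `p`-elements of the inertia group centralize the factor -/
def EC (p : ℕ) (e : V ≃* ∀ i, T i) (i : Fin m) (θ : T i → ℂ) : Prop :=
  ∀ g ∈ inert V (infl e i θ), (∃ k, g ^ p ^ k = 1) → g ∈ centralizer (T i : Set G)

omit [Finite G] in
theorem ker_cj {T : Subgroup G} {g : G} (hg : g ∈ normalizer (T : Set G)) (h : cj hg = 1) :
    g ∈ centralizer (T : Set G) := by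
  rw [mem_centralizer_iff]
  intro t ht
  have h4 := congrArg (fun β : MulAut T => ((β ⟨t, ht⟩ : T) : G)) h
  change g * t * g⁻¹ = t at h4
  exact (mul_inv_eq_iff_eq_mul.1 h4).symm

/-- In a cyclic `p`-group an element of order `p` lies in each nontrivial subgroup. -/
theorem mem_zpowers_of_cyclic {D : Type u} [Group D] [Finite D] {S : Subgroup D} (hS : IsCyclic S)
    (hSp : IsPGroup p S) {a b : D} (ha : a ∈ S) (hb : b ∈ S) (ha1 : a ≠ 1) (hbp : b ^ p = 1) :
    b ∈ zpowers a := by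
  by_cases hb1 : b = 1
  · rw [hb1]; exact one_mem _
  have hbo : orderOf b = p := orderOf_eq_prime hbp hb1
  obtain ⟨k, hk⟩ := hSp ⟨a, ha⟩
  have hk' : a ^ p ^ k = 1 := congrArg Subtype.val hk
  have h1 : orderOf a ∣ p ^ k := orderOf_dvd_of_pow_eq_one hk'
  obtain ⟨n, -, hn⟩ := (Nat.dvd_prime_pow hp.out).1 h1
  have hn0 : n ≠ 0 := by
    rintro rfl
    rw [pow_zero, orderOf_eq_one_iff] at hn
    exact ha1 hn
  obtain ⟨l, rfl⟩ := Nat.exists_eq_succ_of_ne_zero hn0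
  have h2 : orderOf (a ^ p ^ l) = p := by
    have h3 : orderOf (a ^ p ^ l) = orderOf a / p ^ l :=
      orderOf_pow_of_dvd (pow_ne_zero _ hp.out.ne_zero) (by rw [hn, pow_succ]; exact dvd_mul_right _ _)
    rw [h3, hn, pow_succ, Nat.mul_div_cancel_left _ (pow_pos hp.out.pos _)]
  have h3 := LieRecognition.FT61.Grp.zpowers_eq_of_orderOf hS (pow_mem ha (p ^ l)) hb (h2.trans hbo.symm)
  have h4 : b ∈ zpowers (a ^ p ^ l) := by rw [h3]; exact mem_zpowers b
  exact (zpowers_le.2 (pow_mem (mem_zpowers a) _)) h4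

/-- (E) in case (i). -/
theorem Wk.ec_one (w : Wk p V U) (h : Sys V T e)
    (hσ : ∀ g i, T (σ g i) = (T i).map (MulAut.conj g).toMonoidHom) {i : Fin m} (hcc : CC (T i))
    (hU : ∀ u ∈ U, σ u i = i) {θ : T i → ℂ} (hg : Good e U i θ) : EC p e i θ := by
  classical
  rintro g hgI ⟨k, hk⟩
  by_contra hgC
  set N := normalizer (T i : Set G) with hN
  have hgN : g ∈ N := (mem_normalizer_iff_sigma h hσ).2 (sigma_of_inert h hσ hg.nt hgI)
  have hUN : U ≤ N := fun u hu => (mem_normalizer_iff_sigma h hσ).2 (hU u hu)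
  have hVI : V ≤ inert V (infl e i θ) := le_inert (isIrr_isClassFunction (isIrr_infl i hg.irr))
  -- Sylow subgroups of `N`
  have hgp : IsPGroup p (zpowers (⟨g, hgN⟩ : N)) := by
    rintro ⟨x, n, rfl⟩
    refine ⟨k, ?_⟩
    apply Subtype.ext
    apply Subtype.ext
    change (g ^ n) ^ p ^ k = 1
    rw [← zpow_natCast, ← zpow_mul, mul_comm, zpow_mul, zpow_natCast, hk, one_zpow]
  obtain ⟨P, hP⟩ := hgp.exists_le_sylow
  obtain ⟨u, hu⟩ := exists_prime_orderOf_dvd_card' (G := U) p (by rw [w.cardU]; exact dvd_mul_right _ _)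
  have hu' : orderOf (u : G) = p := by rw [Subgroup.orderOf_coe, hu]
  have hup : IsPGroup p (zpowers (⟨u, hUN u.2⟩ : N)) := by
    rintro ⟨x, n, rfl⟩
    refine ⟨1, ?_⟩
    apply Subtype.ext
    apply Subtype.ext
    change ((u : G) ^ n) ^ p ^ 1 = 1
    rw [← zpow_natCast, ← zpow_mul, mul_comm, zpow_mul, zpow_natCast, pow_one, ← hu', pow_orderOf_eq_one,
      one_zpow]
  obtain ⟨P', hP'⟩ := hup.exists_le_sylow
  obtain ⟨x, hx⟩ := MulAction.exists_smul_eq N P' P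
  -- a conjugate `u1` of `u` in `P`
  set u1 : G := x * u * (x : G)⁻¹ with hu1
  have hu1U : u1 ∈ U := hUn.conj_mem u u.2 x
  have hu1o : orderOf u1 = p := by
    rw [← hu', hu1]
    exact MulEquiv.orderOf_eq (MulAut.conj (x : G)) (u : G)
  have hu1P : (⟨u1, hUN hu1U⟩ : N) ∈ (P : Subgroup N) := by
    rw [← hx, Sylow.coe_subgroup_smul, Subgroup.mem_pointwise_smul_iff_inv_smul_mem]
    have h1 : (MulAut.conj x)⁻¹ • (⟨u1, hUN hu1U⟩ : N) = ⟨u, hUN u.2⟩ := by
      rw [← map_inv, MulAut.smul_def, MulAut.conj_apply]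
      apply Subtype.ext
      change (x : G)⁻¹ * u1 * (x : G)⁻¹⁻¹ = u
      rw [hu1]
      group
    have h2 : (⟨u, hUN u.2⟩ : N) ∈ (P' : Subgroup N) := hP' (mem_zpowers _)
    rw [← h1] at h2
    exact h2
  have hgP : (⟨g, hgN⟩ : N) ∈ (P : Subgroup N) := hP (mem_zpowers _)
  -- the image in the automorphism group is cyclic
  let φ : N →* MulAut (T i) := (T i).normalizerMonoidHom
  have hpT : ¬ p ∣ Nat.card (T i) := fun hd => w.cop (hd.trans (Subgroup.card_dvd_of_le (h.le i)))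
  have hPp : IsPGroup p ((P : Subgroup N).map φ) := P.isPGroup'.map φ
  have hcyc : IsCyclic ((P : Subgroup N).map φ) := by
    apply hcc
    obtain ⟨n, hn⟩ := IsPGroup.iff_card.1 hPp
    rw [hn]
    exact Nat.Coprime.pow_left n ((Nat.Prime.coprime_iff_not_dvd hp.out).2 hpT)
  have ha1 : φ ⟨g, hgN⟩ ≠ 1 := fun h1 => hgC (ker_cj hgN h1)
  have hb1 : (φ ⟨u1, hUN hu1U⟩) ^ p = 1 := by
    rw [← map_pow]
    have h2 : (⟨u1, hUN hu1U⟩ : N) ^ p = 1 := Subtype.ext (by
      change u1 ^ p = 1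
      rw [← hu1o, pow_orderOf_eq_one])
    rw [h2, map_one]
  obtain ⟨n, hn⟩ := mem_zpowers_of_cyclic hcyc hPp (mem_map_of_mem φ hgP) (mem_map_of_mem φ hu1P) ha1 hb1
  have hn' : (φ ⟨g, hgN⟩) ^ n = φ ⟨u1, hUN hu1U⟩ := hn
  -- `u1` lies in the inertia group
  have h1 : u1⁻¹ * g ^ n ∈ centralizer (T i : Set G) := by
    have h2 : φ (⟨u1, hUN hu1U⟩⁻¹ * ⟨g, hgN⟩ ^ n) = 1 := by
      rw [map_mul, map_inv, map_zpow, hn', inv_mul_cancel]
    exact ker_cj (g := u1⁻¹ * g ^ n) (mul_mem (inv_mem (hUN hu1U)) (zpow_mem hgN n)) h2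
  have h2 : u1 ∈ inert V (infl e i θ) := by
    have h3 := centralizer_le_inert h hσ θ h1
    have h4 : u1 = g ^ n * (u1⁻¹ * g ^ n)⁻¹ := by group
    rw [h4]
    exact mul_mem (zpow_mem hgI n) (inv_mem h3)
  exact hg.notU (w.le_of_mem hVI hu1o hu1U h2)

/-- A `p`-subgroup of order `p ^ 2` of a subgroup. -/
theorem exists_sub {J : Subgroup G} (hJ : (Nat.card J).factorization p = 2) :
    ∃ R : Subgroup G, R ≤ J ∧ Nat.card R = p ^ 2 ∧ ∀ r ∈ R, ∃ k, r ^ p ^ k = 1 := by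
  obtain ⟨P⟩ : Nonempty (Sylow p J) := inferInstance
  refine ⟨(P : Subgroup J).map J.subtype, Subgroup.map_subtype_le _, ?_, ?_⟩
  · rw [Subgroup.card_map_of_injective J.subtype_injective, P.card_eq_multiplicity, hJ]
  · rintro _ ⟨x, hx, rfl⟩
    obtain ⟨k, hk⟩ := P.isPGroup' ⟨x, hx⟩
    exact ⟨k, congrArg (fun y : P => ((y : J) : G)) hk⟩

/-- one factor -/
theorem Wk.exists_one (w : Wk p V U) {i : Fin m} {θ : T i → ℂ} (hg : Good e U i θ) (hE : EC p e i θ) :
    ∃ R : Subgroup G, Nat.card R = p ^ 2 ∧ R ≤ centralizer (T i : Set G) := by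
  obtain ⟨R, h1, h2, h3⟩ := exists_sub (w.factI (isIrr_infl i hg.irr) hg.notU)
  exact ⟨R, h2, fun r hr => hE r (h1 hr) (h3 r hr)⟩

/-- (G) two factors -/
theorem Wk.exists_two (hp2 : p ≠ 2) (w : Wk p V U) (h : Sys V T e)
    (hσ : ∀ g i, T (σ g i) = (T i).map (MulAut.conj g).toMonoidHom) {i j : Fin m} (hij : i ≠ j)
    {θ : T i → ℂ} (hg : Good e U i θ) (hE : EC p e i θ) {θ' : T j → ℂ} (hg' : Good e U j θ') (hE' : EC p e j θ') :
    ∃ R : Subgroup G, Nat.card R = p ^ 2 ∧ R ≤ centralizer (T i : Set G) ∧ R ≤ centralizer (T j : Set G) := by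
  have hirr : IsIrrCharacter V (pair e i j θ θ') := isIrr_pair hij hg.irr hg'.irr
  have h0 := isIrr_apply_one_ne_zero hg.irr
  have h0' := isIrr_apply_one_ne_zero hg'.irr
  have hodd : Odd p := hp.out.odd_of_ne_two hp2
  have hU : ¬ U ≤ inert V (pair e i j θ θ') := by
    intro hU
    apply hg.notU
    intro u hu
    refine (pair_inert_of_odd h hσ hij hg.nt hg'.nt h0 h0' (hU hu) hodd ?_).2
    have h1 : u ^ p ∈ V := by
      have h2 : (V.subgroupOf U).index = p := by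
        have h3 := card_mul_relIndex w.VU
        rw [w.cardU, mul_comm] at h3
        exact Nat.eq_of_mul_eq_mul_right Nat.card_pos h3
      have h3 := Subgroup.pow_index_mem (V.subgroupOf U) (⟨u, hu⟩ : U)
      rw [h2] at h3
      exact h3
    exact Sys.sigma_of_mem h hσ h1 i
  obtain ⟨R, h1, h2, h3⟩ := exists_sub (w.factI hirr hU)
  refine ⟨R, h2, fun r hr => hE r ?_ (h3 r hr), fun r hr => hE' r ?_ (h3 r hr)⟩
  · obtain ⟨k, hk⟩ := h3 r hr
    exact (pair_inert_of_odd h hσ hij hg.nt hg'.nt h0 h0' (h1 hr) (hodd.pow (n := k))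
      (by rw [hk, map_one]; rfl)).2
  · obtain ⟨k, hk⟩ := h3 r hr
    have hr' : r ∈ inert V (pair e j i θ' θ) := by
      intro n
      have h4 := h1 hr n
      unfold pair at h4 ⊢
      rw [mul_comm, h4, mul_comm]
    exact (pair_inert_of_odd h hσ hij.symm hg'.nt hg.nt h0' h0 hr' (hodd.pow (n := k))
      (by rw [hk, map_one]; rfl)).2

/-- The end of the proof. -/
theorem Wk.fin (hp2 : p ≠ 2) (hIM : FactIM.{u} p) (w : Wk p V U) (h : Sys V T e) (hm : 0 < m)
    (hσ : ∀ g i, T (σ g i) = (T i).map (MulAut.conj g).toMonoidHom)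
    (hmax : ∀ N : Subgroup G, N.Normal → V ≤ N → (∃ k, Nat.card N = p ^ k * Nat.card V) → N ≤ U)
    (θ : ∀ i, T i → ℂ) (hg : ∀ i, Good e U i (θ i)) (hE : ∀ i, EC p e i (θ i)) : False := by
  obtain ⟨R, hRc, hR⟩ := w.exists_one (hg ⟨0, hm⟩) (hE ⟨0, hm⟩)
  set o : Fin m := ⟨0, hm⟩ with ho
  -- `V ⊔ R` is normal
  have key : ∀ R' : Subgroup G, Nat.card R' = p ^ 2 → ∀ j, R' ≤ centralizer (T j : Set G) → R' ≤ V ⊔ R := by
    intro R' hRc' j hR'
    by_cases hj : j = o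
    · subst hj
      exact w.sup_eq hIM h hσ (hg _) hR' hRc' hR hRc
    · obtain ⟨R0, h1, h2, h3⟩ := w.exists_two hp2 h hσ (i := j) (j := o) hj (hg _) (hE _) (hg _) (hE _)
      have h4 := w.sup_eq hIM h hσ (hg _) hR' hRc' h2 h1
      have h5 := w.sup_eq hIM h hσ (hg _) h3 h1 hR hRc
      exact h4.trans (sup_le le_sup_left h5)
  have hn : (V ⊔ R).Normal := by
    constructor
    intro x hx g
    have h1 : V ⊔ R ≤ (V ⊔ R).comap (MulAut.conj g).toMonoidHom := by
      refine sup_le ?_ ?_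
      · intro v hv
        exact mem_sup_left (hV.conj_mem v hv g)
      · rw [← Subgroup.map_le_iff_le_comap]
        refine key (R.map (MulAut.conj g).toMonoidHom) ?_ (σ g o) ?_
        · rw [Subgroup.card_map_of_injective (MulAut.conj g).injective, hRc]
        · rintro _ ⟨r, hr, rfl⟩
          rw [mem_centralizer_iff]
          intro t ht
          rw [hσ] at ht
          obtain ⟨s, hs, rfl⟩ := ht
          have h2 := mem_centralizer_iff.1 (hR hr) s hs
          rw [← map_mul, h2, map_mul]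
    exact h1 hx
  have hdis : V ⊓ R = ⊥ := by
    rw [← Subgroup.card_eq_one]
    have h1 : Nat.card (V ⊓ R : Subgroup G) ∣ p ^ 2 := by
      rw [← hRc]; exact Subgroup.card_dvd_of_le inf_le_right
    have h2 : Nat.card (V ⊓ R : Subgroup G) ∣ Nat.card V := Subgroup.card_dvd_of_le inf_le_left
    have h3 : (p ^ 2).Coprime (Nat.card V) :=
      Nat.Coprime.pow_left 2 ((Nat.Prime.coprime_iff_not_dvd hp.out).2 w.cop)
    exact Nat.eq_one_of_dvd_coprimes h3 h1 h2
  have hc := card_sup_mul (K := V) R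
  rw [hdis, Subgroup.card_bot, mul_one, hRc] at hc
  have h1 := hmax _ hn le_sup_left ⟨2, by rw [hc, mul_comm]⟩
  have h2 := Nat.le_of_dvd Nat.card_pos (Subgroup.card_dvd_of_le h1)
  rw [hc, w.cardU] at h2
  have h3 : 0 < Nat.card V := Nat.card_pos
  have h4 := hp.out.one_lt
  have h5 : p * Nat.card V < Nat.card V * p ^ 2 := by
    rw [pow_two, ← mul_assoc, mul_comm (Nat.card V) p]
    exact lt_mul_of_one_lt_right (Nat.mul_pos hp.out.pos h3) h4
  omega

end Cfsg.Agent.H52.PSq
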