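import Cfsg.Agent.H52.PSq.CaseI
import Cfsg.Agent.H829.GowDesc
import Cfsg.Agent.S0139

/-!
# Case (ii) of S4844, PS-9: `U` moves the factors
-/

set_option autoImplicit false

namespace Cfsg.Agent.H52.PSq

open Cfsg Subgroup Cfsg.Agent.H803.S74
open Cfsg.Agent.Characters.Core Cfsg.Agent.Characters.Clifford Cfsg.Agent.Blocks.Knorr
open Cfsg.Agent.CharDeep.CliffordCorr
open Cfsg.Agent.H696.PSq (Hyp FactIM)

universe u

/-- PS-9c (helper771). -/
def FactC (p : ℕ) : Prop :=
  ∀ (N : Type u) [Group N] [Finite N] (T : Subgroup N), T.Normal → IsSimpleGroup T →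
    ¬ IsMulCommutative T → ¬ p ∣ Nat.card T →
    (∀ χ : N → ℂ, IsIrrCharacter N χ → (∀ c ∈ centralizer (T : Set N), χ c = χ 1) →
      (∃ t ∈ T, χ t ≠ χ 1) → ¬ p ∣ charDegree χ) →
    ¬ p ∣ (centralizer (T : Set N)).index

variable {p : ℕ} [hp : Fact p.Prime] {G : Type u} [Group G] [Finite G] {V U : Subgroup G} [hV : V.Normal]
  [hUn : U.Normal] {m : ℕ} {T : Fin m → Subgroup G} {e : V ≃* ∀ i, T i} {σ : G →* Equiv.Perm (Fin m)}

/-- all characters of the normalizer of a factor above a good character have degree prime to `p` -/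
theorem Wk.normalizer_deg (w : Wk p V U) {θ : V → ℂ} (hθ : IsIrrCharacter V θ) (hU : ¬ U ≤ inert V θ)
    {N : Subgroup G} (hVN : V ≤ N) (hIN : inert V θ ≤ N) (hUN : ¬ U ≤ N) [Fintype V] {χ : N → ℂ}
    (hχ : IsIrrCharacter N χ)
    (hover : classInner (fun v : V => χ ⟨(v : G), hVN v.2⟩) θ ≠ 0) : ¬ p ∣ charDegree χ := by
  classical
  have := Fintype.ofFinite G
  have := Fintype.ofFinite N
  set I := inert V θ with hI
  have hVI : V ≤ I := le_inert (isIrr_isClassFunction hθ)
  -- the index of `I` in `N`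
  have h1 : ¬ p ∣ I.relIndex N := by
    intro h2
    apply w.not_sq_index hθ
    rw [← hI, ← Subgroup.relIndex_mul_index hIN, pow_two]
    exact Nat.mul_dvd_mul h2 (w.dvd_index hVN hUN)
  -- Clifford correspondence in `N`
  let f : V.subgroupOf N ≃* V := Subgroup.subgroupOfEquivOfLe hVN
  have hθ' : IsIrrCharacter (V.subgroupOf N) (θ ∘ f) :=
    isIrr_comp (f : V.subgroupOf N →* V) f.surjective hθ
  have hHn : (V.subgroupOf N).Normal := inferInstance
  have := Fintype.ofFinite (V.subgroupOf N)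
  have := Fintype.ofFinite (I.subgroupOf N)
  have hT : ∀ g : N, g ∈ I.subgroupOf N ↔ ∀ n : V.subgroupOf N,
      (θ ∘ f) ⟨g * n * g⁻¹, hHn.conj_mem (n : N) n.2 g⟩ = (θ ∘ f) n := by
    intro g
    rw [mem_subgroupOf, hI, mem_inert]
    constructor
    · intro h2 n
      exact h2 (f n)
    · intro h2 n
      exact h2 (f.symm n)
  have hHT : V.subgroupOf N ≤ I.subgroupOf N := fun x hx => hVI hx
  have hover' : classInner (fun n : V.subgroupOf N => χ n) (θ ∘ f) ≠ 0 := by
    have h2 : classInner (fun n : V.subgroupOf N => χ n) (θ ∘ f) =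
        classInner (fun v : V => χ ⟨(v : G), hVN v.2⟩) θ :=
      classInner_comp_mulEquiv f (fun v : V => χ ⟨(v : G), hVN v.2⟩) θ
    rw [h2]
    exact hover
  obtain ⟨ψ, hψ, hind, hmult⟩ := clifford_correspondence (V.subgroupOf N) (θ ∘ f) hθ' (I.subgroupOf N) hT hHT
    χ hχ hover'
  have hres := restrict_eq_mul_of_invariant (V.subgroupOf N) (I.subgroupOf N) hHT hψ hθ'
    (fun g hg => (hT g).1 hg) (by rw [hmult]; exact hover')
  let E : I.subgroupOf N ≃* I := Subgroup.subgroupOfEquivOfLe hIN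
  have hδ : IsIrrCharacter I (ψ ∘ E.symm) := isIrr_comp (E.symm : I →* _) E.symm.surjective hψ
  have h2 := w.not_dvd_deg hθ hU hVI le_rfl (fun g hg k hk => mul_mem (mul_mem hg hk) (inv_mem hg)) hδ
    (m := classInner (fun n : V.subgroupOf N => ψ ⟨(n : N), hHT n.2⟩) (θ ∘ f))
    (by rw [hmult]; exact hover') (fun v => hres (f.symm v))
  have h3 : charDegree (ψ ∘ E.symm) = charDegree ψ := by
    unfold charDegree
    rw [Function.comp_apply, map_one]
  rw [h3] at h2
  have h4 : charDegree χ = (I.subgroupOf N).index * charDegree ψ := by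
    apply H670.PSing.charDegree_eq_of
    rw [← hind, CharactersDeep.NormalInd.indFun_one, charDegree_eq hψ, Nat.cast_mul]
  rw [h4]
  intro h5
  rcases (hp.out.dvd_mul).1 h5 with h6 | h6
  · exact h1 h6
  · exact h2 h6

/-- (E) in case (ii). -/
theorem Wk.ec_two (hC : FactC.{u} p) (w : Wk p V U) (h : Sys V T e)
    (hσ : ∀ g i, T (σ g i) = (T i).map (MulAut.conj g).toMonoidHom) {i : Fin m}
    (hU : ∃ u ∈ U, σ u i ≠ i) {θ : T i → ℂ} (hg : Good e U i θ) : EC p e i θ := by
  classical
  obtain ⟨u, huU, hui⟩ := hU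
  set N := normalizer (T i : Set G) with hN
  have hVN : V ≤ N := h.norm i
  have hTN : T i ≤ N := le_normalizer
  have hUN : ¬ U ≤ N := fun h1 => hui ((mem_normalizer_iff_sigma h hσ).1 (h1 huU))
  -- every nontrivial character is good
  have hgood : ∀ θ : T i → ℂ, IsIrrCharacter (T i) θ → (∃ t, θ t ≠ θ 1) → Good e U i θ := by
    intro θ h1 h2
    exact ⟨h1, h2, fun h3 => hui (sigma_of_inert h hσ h2 (h3 huU))⟩
  have hIN : ∀ θ : T i → ℂ, (∃ t, θ t ≠ θ 1) → inert V (infl e i θ) ≤ N := fun θ h2 g hg =>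
    (mem_normalizer_iff_sigma h hσ).2 (sigma_of_inert h hσ h2 hg)
  let S : Subgroup N := (T i).subgroupOf N
  have hSn : S.Normal := by
    constructor
    intro t ht g
    exact (mem_normalizer_iff.1 g.2 _).1 ht
  let F : S ≃* T i := Subgroup.subgroupOfEquivOfLe hTN
  have hpT : ¬ p ∣ Nat.card (T i) := fun hd => w.cop (hd.trans (Subgroup.card_dvd_of_le (h.le i)))
  have hsim := h.simple i
  have hind : ¬ p ∣ (centralizer (S : Set N)).index := by
    refine hC N S hSn ?_ ?_ ?_ ?_
    · have : Nontrivial (T i) := hsim.toNontrivial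
      have : Nontrivial S := F.toEquiv.nontrivial
      exact IsSimpleGroup.isSimpleGroup_of_surjective F.symm.toMonoidHom F.symm.surjective
    · intro hc
      obtain ⟨a, b, hab⟩ := h.nab i
      apply hab
      have h1 := hc.is_comm.comm (F.symm a) (F.symm b)
      apply F.symm.injective
      rw [map_mul, map_mul]
      exact h1
    · rw [Nat.card_congr F.toEquiv]
      exact hpT
    · intro χ hχ hker hne
      -- a nontrivial constituent on the factor
      have := Fintype.ofFinite (T i)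
      have := Fintype.ofFinite V
      have := finite_irr (G := T i)
      have := Fintype.ofFinite (IrrCharacter (T i))
      let χT : T i → ℂ := fun t => χ ⟨(t : G), hTN t.2⟩
      have hχT : IsCharacter (T i) χT :=
        isCharacter_comp (Subgroup.inclusion hTN) (isIrr_isCharacter hχ)
      obtain ⟨θ', hθ', hne', hin⟩ : ∃ θ' : T i → ℂ, IsIrrCharacter (T i) θ' ∧ (∃ t, θ' t ≠ θ' 1) ∧
          classInner χT θ' ≠ 0 := by
        by_contra hcon
        push Not at hcon
        obtain ⟨t, ht, htne⟩ := hne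
        apply htne
        obtain ⟨c, hc, hc'⟩ := exists_nat_coeffs hχT
        have h1 : ∀ s : T i, χT s = χT 1 := by
          intro s
          rw [hc]
          simp only [Finset.sum_apply, Pi.smul_apply, smul_eq_mul]
          refine Finset.sum_congr rfl fun η _ => ?_
          by_cases h2 : ∃ t, (η : T i → ℂ) t ≠ (η : T i → ℂ) 1
          · have h3 := hcon _ η.2 h2
            rw [hc'] at h3
            rw [h3, zero_mul, zero_mul]
          · push Not at h2
            rw [h2 s]
        exact h1 ⟨t, ht⟩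
      have hg' := hgood θ' hθ' hne'
      refine w.normalizer_deg (isIrr_infl i hθ') hg'.notU hVN (hIN θ' hne') hUN hχ ?_
      -- multiplicities
      let q : V →* T i := (Pi.evalMonoidHom (fun i => T i) i).comp (e : V →* ∀ i, T i)
      have hq : Function.Surjective q := by
        intro t
        exact ⟨e.symm (Pi.mulSingle i t), by simp [q]⟩
      have h2 : (fun v : V => χ ⟨(v : G), hVN v.2⟩) = χT ∘ q := by
        funext v
        obtain ⟨c, -, hc⟩ := decomp h i v
        have hcN : (c : G) ∈ N := (mem_normalizer_iff_sigma h hσ).2 (sigma_of_centralizer h hσ c.2)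
        have hcS : (⟨c, hcN⟩ : N) ∈ centralizer (S : Set N) := by
          rw [mem_centralizer_iff]
          intro t ht
          exact Subtype.ext (mem_centralizer_iff.1 c.2 t ht)
        have h3 : (⟨(v : G), hVN v.2⟩ : N) = ⟨(e v i : G), hTN (e v i).2⟩ * ⟨c, hcN⟩ := Subtype.ext hc
        rw [h3]
        obtain ⟨n, ρ, hρ, rfl⟩ := hχ
        have h4 : ρ (⟨c, hcN⟩ : N) = 1 :=
          (Cfsg.Agent.S0139.result ρ _).1 (by rw [hker _ hcS, Representation.char_one])
        change LinearMap.trace ℂ _ (ρ (_ * _)) = LinearMap.trace ℂ _ (ρ _)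
        rw [map_mul, h4, mul_one]
        rfl
      have h3 : infl e i θ' = θ' ∘ q := rfl
      rw [h2, h3, H829.GowDesc.classInner_comp_surj q hq]
      exact hin
  -- the conclusion
  rintro g hgI ⟨k, hk⟩
  have hgN : g ∈ N := hIN θ hg.nt hgI
  have hCn : (centralizer (S : Set N)).Normal := Subgroup.normal_centralizer
  have h1 : (⟨g, hgN⟩ : N) ∈ centralizer (S : Set N) := by
    rw [← QuotientGroup.eq_one_iff]
    have h2 : ((⟨g, hgN⟩ : N) : N ⧸ centralizer (S : Set N)) ^ p ^ k = 1 := by
      rw [← QuotientGroup.mk_pow]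
      have h3 : (⟨g, hgN⟩ : N) ^ p ^ k = 1 := Subtype.ext hk
      rw [h3]
      rfl
    have h3 := orderOf_dvd_of_pow_eq_one h2
    have h4 := orderOf_dvd_natCard ((⟨g, hgN⟩ : N) : N ⧸ centralizer (S : Set N))
    have h5 : (p ^ k).Coprime (Nat.card (N ⧸ centralizer (S : Set N))) :=
      Nat.Coprime.pow_left k ((Nat.Prime.coprime_iff_not_dvd hp.out).2 hind)
    rw [← orderOf_eq_one_iff]
    exact Nat.eq_one_of_dvd_coprimes h5 h3 h4
  rw [mem_centralizer_iff]
  intro t ht
  exact congrArg Subtype.val (mem_centralizer_iff.1 h1 ⟨t, hTN ht⟩ ht)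

end Cfsg.Agent.H52.PSq
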