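import Cfsg.Agent.H52.PSq.Ine
import Cfsg.Agent.H696.PSq.Defs

/-!
# The situation of S4844, PS-9: inertia groups have `p`-part `p ^ 2`, the centralizer of a factor modulo `V` has a
normal Sylow `p`-subgroup
-/

set_option autoImplicit false

namespace Cfsg.Agent.H52.PSq

open Cfsg Subgroup Cfsg.Agent.H803.S74
open Cfsg.Agent.Characters.Core Cfsg.Agent.Blocks.Knorr
open Cfsg.Agent.H696.PSq (Hyp FactIM)

universe u

/-- the working situation -/
structure Wk (p : ℕ) {G : Type u} [Group G] (V U : Subgroup G) : Prop where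
  hyp : Hyp p G
  cop : ¬ p ∣ Nat.card V
  VU : V ≤ U
  cardU : Nat.card U = p * Nat.card V
  three : (Nat.card G).factorization p = 3

variable {p : ℕ} [hp : Fact p.Prime] {G : Type u} [Group G] [Finite G] {V U : Subgroup G} [hV : V.Normal]
  [hUn : U.Normal]

omit hp [Finite G] hV hUn in
theorem Wk.not_sq (w : Wk p V U) {χ : G → ℂ} (hχ : IsIrrCharacter G χ) : ¬ p ^ 2 ∣ charDegree χ :=
  fun h => w.hyp ⟨⟨χ, hχ⟩, h⟩

omit hV in
theorem Wk.dvd_index (w : Wk p V U) {I : Subgroup G} (hVI : V ≤ I) (hUI : ¬ U ≤ I) : p ∣ I.index :=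
  PSq.dvd_index hp.out w.VU w.cardU hVI hUI

/-- degrees in a normal subgroup of the inertia group -/
theorem Wk.not_dvd_deg (w : Wk p V U) {θ : V → ℂ} (hθ : IsIrrCharacter V θ) (hU : ¬ U ≤ inert V θ)
    {K : Subgroup G} (hVK : V ≤ K) (hKI : K ≤ inert V θ) (hKn : ∀ g ∈ inert V θ, ∀ k ∈ K, g * k * g⁻¹ ∈ K)
    {δ : K → ℂ} (hδ : IsIrrCharacter K δ) {m : ℂ} (hm : m ≠ 0)
    (hres : ∀ v : V, δ ⟨(v : G), hVK v.2⟩ = m * θ v) : ¬ p ∣ charDegree δ := by
  intro hd
  obtain ⟨χ, hχ, h1⟩ := CL V hθ (fun g => mem_inert) hVK hKI hKn hδ hm hres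
  have h2 := w.dvd_index (le_inert (isIrr_isClassFunction hθ)) hU
  apply w.not_sq hχ
  rw [pow_two]
  exact (Nat.mul_dvd_mul h2 hd).trans h1

omit hp hUn in
theorem Wk.not_sq_index (w : Wk p V U) {θ : V → ℂ} (hθ : IsIrrCharacter V θ) : ¬ p ^ 2 ∣ (inert V θ).index := by
  intro h
  obtain ⟨χ, hχ, h1⟩ := CL V hθ (fun g => mem_inert) le_rfl (le_inert (isIrr_isClassFunction hθ))
    (fun g _ k hk => hV.conj_mem k hk g) hθ one_ne_zero (fun v => by rw [one_mul])
  exact w.not_sq hχ ((h.trans (dvd_mul_right _ _)).trans h1)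

omit hV hUn in
theorem Wk.fact_of_index (w : Wk p V U) {I : Subgroup G} (h1 : p ∣ I.index) (h2 : ¬ p ^ 2 ∣ I.index) :
    (Nat.card I).factorization p = 2 := by
  have h3 := w.three
  rw [← I.card_mul_index, Nat.factorization_mul Nat.card_pos.ne' Subgroup.index_ne_zero_of_finite,
    Finsupp.add_apply] at h3
  have h4 : 1 ≤ I.index.factorization p :=
    (hp.out.dvd_iff_one_le_factorization Subgroup.index_ne_zero_of_finite).1 h1
  have h5 : ¬ 2 ≤ I.index.factorization p := fun h =>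
    h2 ((hp.out.pow_dvd_iff_le_factorization Subgroup.index_ne_zero_of_finite).2 h)
  omega

theorem Wk.factI (w : Wk p V U) {θ : V → ℂ} (hθ : IsIrrCharacter V θ) (hU : ¬ U ≤ inert V θ) :
    (Nat.card (inert V θ)).factorization p = 2 :=
  w.fact_of_index (w.dvd_index (le_inert (isIrr_isClassFunction hθ)) hU) (w.not_sq_index hθ)

omit hV hUn in
/-- an element of order `p` of `U` and `V` generate `U` -/
theorem Wk.le_of_mem (w : Wk p V U) {I : Subgroup G} (hVI : V ≤ I) {x : G} (hx : orderOf x = p) (hxU : x ∈ U)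
    (hxI : x ∈ I) : U ≤ I := by
  have h1 : Nat.card V ∣ Nat.card (U ⊓ I : Subgroup G) := Subgroup.card_dvd_of_le (le_inf w.VU hVI)
  have h2 : p ∣ Nat.card (U ⊓ I : Subgroup G) := by
    have h3 : orderOf (⟨x, hxU, hxI⟩ : (U ⊓ I : Subgroup G)) = p := by
      rw [← hx, ← Subgroup.orderOf_coe]
    rw [← h3]
    exact orderOf_dvd_natCard _
  have h3 : p * Nat.card V ∣ Nat.card (U ⊓ I : Subgroup G) :=
    Nat.Coprime.mul_dvd_of_dvd_of_dvd ((Nat.Prime.coprime_iff_not_dvd hp.out).2 w.cop) h2 h1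
  rw [← w.cardU] at h3
  have h4 : U ⊓ I = U :=
    Subgroup.eq_of_le_of_card_ge inf_le_left (Nat.le_of_dvd Nat.card_pos h3)
  rw [← h4]
  exact inf_le_right

/-! ### one factor -/

section factor

variable {m : ℕ} {T : Fin m → Subgroup G} {e : V ≃* ∀ i, T i}

/-- a good character of a factor -/
structure Good (e : V ≃* ∀ i, T i) (U : Subgroup G) (i : Fin m) (θ : T i → ℂ) : Prop where
  irr : IsIrrCharacter (T i) θ
  nt : ∃ t, θ t ≠ θ 1
  notU : ¬ U ≤ inert V (infl e i θ)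

omit [Finite G] hV in
theorem inf_centralizer (h : Sys V T e) (i : Fin m) {x : G} (h1 : x ∈ T i)
    (h2 : x ∈ centralizer (T i : Set G)) : x = 1 := by
  classical
  have h3 : e ⟨x, h.le i h1⟩ i = 1 := by
    rw [h.one]
    intro t ht
    exact ((mem_centralizer_iff.1 h2) t ht).symm
  have h4 := e_single h i ⟨x, h1⟩
  change e ⟨x, _⟩ = _ at h4
  rw [h4, Pi.mulSingle_eq_same] at h3
  exact congrArg Subtype.val h3

/-- the product of a factor and its centralizer -/
def prodHom (T : Subgroup G) : T × centralizer (T : Set G) →* G where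
  toFun x := (x.1 : G) * x.2
  map_one' := by simp
  map_mul' x y := by
    have h1 := mem_centralizer_iff.1 x.2.2 (y.1 : G) y.1.2
    change ((x.1 : G) * y.1) * ((x.2 : G) * y.2) = (x.1 * x.2) * (y.1 * y.2)
    calc ((x.1 : G) * y.1) * ((x.2 : G) * y.2) = x.1 * (y.1 * x.2) * y.2 := by group
      _ = x.1 * (x.2 * y.1) * y.2 := by rw [h1]
      _ = _ := by group

omit [Finite G] hV in
theorem prodHom_inj (h : Sys V T e) (i : Fin m) : Function.Injective (prodHom (T i)) := by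
  rw [injective_iff_map_eq_one]
  rintro ⟨x, y⟩ hxy
  have h1 : (x : G) * y = 1 := hxy
  have h2 : (x : G) = (y : G)⁻¹ := eq_inv_of_mul_eq_one_left h1
  have h3 : (x : G) = 1 := inf_centralizer h i x.2 (by rw [h2]; exact inv_mem y.2)
  have h4 : (y : G) = 1 := by rw [h3, one_mul] at h1; exact h1
  exact Prod.ext (Subtype.ext h3) (Subtype.ext h4)

variable {σ : G →* Equiv.Perm (Fin m)}

omit [Finite G] hV in
/-- decomposition of an element of `V` -/
theorem decomp (h : Sys V T e) (i : Fin m) (v : V) :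
    ∃ c : centralizer (T i : Set G), (c : G) ∈ V ∧ (v : G) = (e v i : G) * c := by
  classical
  have h1 : e (⟨e v i, h.le i (e v i).2⟩⁻¹ * v) i = 1 := by
    rw [map_mul, map_inv, Pi.mul_apply, Pi.inv_apply, e_single h, Pi.mulSingle_eq_same, inv_mul_cancel]
  rw [h.one] at h1
  have h2 : ((e v i : G))⁻¹ * v ∈ centralizer (T i : Set G) := by
    rw [mem_centralizer_iff]
    intro t ht
    exact (h1 t ht).symm
  refine ⟨⟨((e v i : G))⁻¹ * v, h2⟩, mul_mem (inv_mem (h.le i (e v i).2)) v.2, ?_⟩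
  change (v : G) = (e v i : G) * (((e v i : G))⁻¹ * v)
  rw [mul_inv_cancel_left]

/-- (C) -/
theorem Wk.centralizer_deg (w : Wk p V U) (h : Sys V T e)
    (hσ : ∀ g i, T (σ g i) = (T i).map (MulAut.conj g).toMonoidHom) {i : Fin m} {θ : T i → ℂ}
    (hg : Good e U i θ) {γ : centralizer (T i : Set G) → ℂ} (hγ : IsIrrCharacter _ γ)
    (hγV : ∀ c : centralizer (T i : Set G), (c : G) ∈ V → ∀ a, γ (a * c) = γ a) : ¬ p ∣ charDegree γ := by
  classical
  set f := prodHom (T i) with hf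
  set K : Subgroup G := f.range with hK
  let E : T i × centralizer (T i : Set G) ≃* K := MonoidHom.ofInjective (prodHom_inj h i)
  have hEv : ∀ x, (E x : G) = (x.1 : G) * x.2 := fun x => rfl
  have hVK : V ≤ K := by
    intro v hv
    obtain ⟨c, -, hc⟩ := decomp h i ⟨v, hv⟩
    exact ⟨(e ⟨v, hv⟩ i, c), hc.symm⟩
  have hKI : K ≤ inert V (infl e i θ) := by
    rintro _ ⟨⟨t, c⟩, rfl⟩
    exact mul_mem (le_inert (isIrr_isClassFunction (isIrr_infl i hg.irr)) (h.le i t.2))
      (centralizer_le_inert h hσ θ c.2)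
  have hKn : ∀ g ∈ inert V (infl e i θ), ∀ k ∈ K, g * k * g⁻¹ ∈ K := by
    rintro g hgI _ ⟨⟨t, c⟩, rfl⟩
    have hs := sigma_of_inert h hσ hg.nt hgI
    have hgc : g * c * g⁻¹ ∈ centralizer (T i : Set G) := by
      rw [mem_centralizer_iff]
      intro s hs2
      have hs' : σ g⁻¹ i = i := by
        rw [map_inv, Equiv.Perm.inv_eq_iff_eq]
        exact hs.symm
      have h2 := conj_mem_of_sigma hσ hs' ⟨s, hs2⟩
      have h3 := mem_centralizer_iff.1 c.2 _ h2
      have h4 : g⁻¹ * s * g * c = c * (g⁻¹ * s * g) := by simpa using h3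
      calc s * (g * c * g⁻¹) = g * (g⁻¹ * s * g * c) * g⁻¹ := by group
        _ = g * (c * (g⁻¹ * s * g)) * g⁻¹ := by rw [h4]
        _ = _ := by group
    refine ⟨(⟨g * t * g⁻¹, conj_mem_of_sigma hσ hs t⟩, ⟨g * c * g⁻¹, hgc⟩), ?_⟩
    change g * (t : G) * g⁻¹ * (g * c * g⁻¹) = g * (t * c) * g⁻¹
    group
  let δ : K → ℂ := (fun x : T i × centralizer (T i : Set G) => θ x.1 * γ x.2) ∘ E.symm
  have hδ : IsIrrCharacter K δ :=
    isIrr_comp (E.symm : K →* _) E.symm.surjective (S0188.isIrr_outer hg.irr hγ)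
  have hres : ∀ v : V, δ ⟨(v : G), hVK v.2⟩ = γ 1 * infl e i θ v := by
    intro v
    obtain ⟨c, hcV, hc⟩ := decomp h i v
    have h1 : E.symm ⟨(v : G), hVK v.2⟩ = (e v i, c) := by
      rw [MulEquiv.symm_apply_eq]
      apply Subtype.ext
      rw [hEv]
      exact hc
    change θ (E.symm ⟨(v : G), hVK v.2⟩).1 * γ (E.symm ⟨(v : G), hVK v.2⟩).2 = _
    rw [h1]
    have h2 := hγV c hcV 1
    rw [one_mul] at h2
    rw [h2, mul_comm]
    rfl
  have hnd := w.not_dvd_deg (isIrr_infl i hg.irr) hg.notU hVK hKI hKn hδ (isIrr_apply_one_ne_zero hγ) hres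
  intro hd
  apply hnd
  have h1 : charDegree δ = charDegree θ * charDegree γ := by
    apply H670.PSing.charDegree_eq_of
    change θ (E.symm 1).1 * γ (E.symm 1).2 = _
    rw [map_one, Nat.cast_mul, ← charDegree_eq hg.irr, ← charDegree_eq hγ]
    rfl
  rw [h1]
  exact hd.mul_left _

/-- The centralizer of a factor modulo `V` has a normal Sylow `p`-subgroup. -/
theorem Wk.sup_eq (hIM : FactIM.{u} p) (w : Wk p V U) (h : Sys V T e)
    (hσ : ∀ g i, T (σ g i) = (T i).map (MulAut.conj g).toMonoidHom) {i : Fin m} {θ : T i → ℂ}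
    (hg : Good e U i θ) {R R' : Subgroup G} (hR : R ≤ centralizer (T i : Set G)) (hRc : Nat.card R = p ^ 2)
    (hR' : R' ≤ centralizer (T i : Set G)) (hRc' : Nat.card R' = p ^ 2) : R ≤ V ⊔ R' := by
  classical
  set C := centralizer (T i : Set G) with hC
  -- `|C|_p = p ^ 2`
  have h1 : (Nat.card C).factorization p = 2 := by
    have h2 := w.factI (isIrr_infl i hg.irr) hg.notU
    have h3 : Nat.card C ∣ Nat.card (inert V (infl e i θ)) :=
      Subgroup.card_dvd_of_le (centralizer_le_inert h hσ θ)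
    have h4 := (Nat.factorization_le_iff_dvd Nat.card_pos.ne' Nat.card_pos.ne').2 h3 p
    have h5 : p ^ 2 ∣ Nat.card C := by
      rw [← hRc]
      exact Subgroup.card_dvd_of_le hR
    have h6 := (hp.out.pow_dvd_iff_le_factorization Nat.card_pos.ne').1 h5
    omega
  let D : Subgroup C := V.subgroupOf C
  have hIMn : ¬ H33.IM p (C ⧸ D) := by
    rintro ⟨β, hβ⟩
    have h2 := isIrr_comp (QuotientGroup.mk' D) (QuotientGroup.mk'_surjective D) β.2
    refine w.centralizer_deg h hσ hg h2 ?_ ?_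
    · intro c hc a
      change (β : C ⧸ D → ℂ) (QuotientGroup.mk' D (a * c)) = (β : C ⧸ D → ℂ) (QuotientGroup.mk' D a)
      have h5 : QuotientGroup.mk' D c = 1 := (QuotientGroup.eq_one_iff (N := D) c).2 (mem_subgroupOf.2 hc)
      rw [map_mul, h5, mul_one]
    · have h3 : charDegree ((β : C ⧸ D → ℂ) ∘ (QuotientGroup.mk' D)) = charDegree (β : C ⧸ D → ℂ) := by
        unfold charDegree
        rw [Function.comp_apply, map_one]
      rwa [h3]
  have cardS : ∀ {R : Subgroup G}, R ≤ C → Nat.card R = p ^ 2 →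
      Nat.card (R.subgroupOf C) = p ^ (Nat.card C).factorization p := by
    intro R hR hRc
    rw [h1, ← hRc]
    exact Nat.card_congr (Subgroup.subgroupOfEquivOfLe hR).toEquiv
  let P : Sylow p C := Sylow.ofCard _ (cardS hR hRc)
  let P' : Sylow p C := Sylow.ofCard _ (cardS hR' hRc')
  have hs := QuotientGroup.mk'_surjective D
  have hn := (hIM (C ⧸ D) hIMn (P.mapSurjective hs)).1
  have hq : P'.mapSurjective hs = P.mapSurjective hs := by
    have := Sylow.unique_of_normal (P.mapSurjective hs) hn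
    exact Subsingleton.elim _ _
  intro r hr
  have h2 : QuotientGroup.mk' D ⟨r, hR hr⟩ ∈ (P'.mapSurjective hs : Subgroup (C ⧸ D)) := by
    rw [hq]
    exact ⟨⟨r, hR hr⟩, mem_subgroupOf.2 hr, rfl⟩
  obtain ⟨r', hr', h3⟩ := h2
  have h4 : r'⁻¹ * ⟨r, hR hr⟩ ∈ D := QuotientGroup.eq.1 h3
  have h5 : (r' : G)⁻¹ * r ∈ V := h4
  have h6 : (r' : G) ∈ R' := hr'
  have h7 : r = (r' : G) * ((r' : G)⁻¹ * r) := by rw [mul_inv_cancel_left]
  rw [h7]
  exact mul_mem (mem_sup_right h6) (mem_sup_left h5)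

end factor

end Cfsg.Agent.H52.PSq
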